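import Cfsg.Agent.H942.L7.Iface2

/-!
# S5920, task CENT (helper893): orders of `P168`, `P336` and of some centralisers
-/

set_option autoImplicit false

namespace Cfsg.Agent.H893.L7

open Equiv Cfsg.Agent.H942.L7

/-- normal form: `nn^i g6^j` (`k = 7`) or `nn^i g6^j ww nn^k` -/
def NF (i j k : ℕ) : Perm (Fin 8) := nn ^ i * g6 ^ j * (if k = 7 then 1 else ww * nn ^ k)

theorem nn_pow_seven : nn ^ 7 = 1 := by decide +kernel
theorem g6_pow_six : g6 ^ 6 = 1 := by decide +kernel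
theorem ww_sq : ww * ww = 1 := by decide +kernel
theorem nn_g6 : nn * g6 = g6 * nn ^ 5 := by decide +kernel
theorem g6_nn : g6 * nn = nn ^ 3 * g6 := by decide +kernel
theorem ww_g6 : ww * g6 = g6 ^ 5 * ww := by decide +kernel

theorem red (i j k : ℕ) : NF i j k = NF (i % 7) (j % 6) k := by
  unfold NF
  rw [pow_eq_pow_mod i nn_pow_seven, pow_eq_pow_mod j g6_pow_six]

/-- the normal forms with `e ∣ j` -/
def S (e : ℕ) : Set (Perm (Fin 8)) := {g | ∃ i < 7, ∃ j < 6, ∃ k < 8, e ∣ j ∧ g = NF i j k}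

theorem mem_S {e i j k : ℕ} (he : e ∣ 6) (hj : e ∣ j) (hk : k < 8) : NF i j k ∈ S e := by
  refine ⟨i % 7, Nat.mod_lt _ (by norm_num), j % 6, Nat.mod_lt _ (by norm_num), k, hk, ?_, red i j k⟩
  exact (Nat.dvd_mod_iff he).2 hj

theorem mul_nn : ∀ k < 8, (if k = 7 then (1 : Perm (Fin 8)) else ww * nn ^ k) * nn =
    if k = 7 then nn else (if (k + 1) % 7 = 7 then 1 else ww * nn ^ ((k + 1) % 7)) := by decide +kernel

theorem g6_pow_nn : ∀ j < 6, g6 ^ j * nn = nn ^ (3 ^ j % 7) * g6 ^ j := by decide +kernel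

theorem mul_g6 : ∀ k < 7, ww * nn ^ k * g6 = g6 ^ 5 * (ww * nn ^ (5 * k % 7)) := by decide +kernel

theorem mul_ww : ∀ k < 7, k ≠ 0 → ∃ a < 7, ∃ b < 6, ∃ c < 7, 2 ∣ b ∧
    ww * nn ^ k * ww = nn ^ a * g6 ^ b * (ww * nn ^ c) := by decide +kernel

theorem g6_pow_nn_pow (j a : ℕ) : ∃ a', g6 ^ j * nn ^ a = nn ^ a' * g6 ^ j := by
  induction a with
  | zero => exact ⟨0, by simp⟩
  | succ a ih =>
    obtain ⟨a', ha'⟩ := ih
    have h1 : g6 ^ j * nn = nn ^ (3 ^ (j % 6) % 7) * g6 ^ j := by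
      rw [pow_eq_pow_mod j g6_pow_six]
      exact g6_pow_nn _ (Nat.mod_lt _ (by norm_num))
    exact ⟨a' + 3 ^ (j % 6) % 7, by rw [pow_succ, ← mul_assoc, ha', mul_assoc, h1, ← mul_assoc, ← pow_add]⟩

theorem NF_mul_nn (i j k : ℕ) (hk : k < 8) : ∃ i' j' k', k' < 8 ∧ (j' = j) ∧ NF i j k * nn = NF i' j' k' := by
  by_cases h7 : k = 7
  · subst h7
    obtain ⟨a', ha'⟩ := g6_pow_nn_pow j 1
    refine ⟨i + a', j, 7, by norm_num, rfl, ?_⟩
    rw [NF, NF, if_pos rfl, mul_one, mul_one, mul_assoc]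
    rw [pow_one] at ha'
    rw [ha', ← mul_assoc, ← pow_add]
  · refine ⟨i, j, (k + 1) % 7, lt_trans (Nat.mod_lt _ (by norm_num)) (by norm_num), rfl, ?_⟩
    have h1 := mul_nn k hk
    rw [if_neg h7, if_neg h7] at h1
    rw [NF, if_neg h7, mul_assoc, h1, NF]

theorem NF_mul_g6 (i j k : ℕ) (hk : k < 8) : ∃ i' j' k', k' < 8 ∧ (j' = j + 1 ∨ j' = j + 5) ∧
    NF i j k * g6 = NF i' j' k' := by
  by_cases h7 : k = 7
  · subst h7
    refine ⟨i, j + 1, 7, by norm_num, Or.inl rfl, ?_⟩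
    rw [NF, NF, if_pos rfl, mul_one, mul_one, mul_assoc, ← pow_succ]
  · refine ⟨i, j + 5, 5 * k % 7, lt_trans (Nat.mod_lt _ (by norm_num)) (by norm_num), Or.inr rfl, ?_⟩
    have h1 := mul_g6 k (by omega)
    have h2 : 5 * k % 7 ≠ 7 := (Nat.mod_lt _ (by norm_num)).ne
    rw [NF, if_neg h7, mul_assoc, h1, NF, if_neg h2, pow_add]
    simp only [mul_assoc]

theorem NF_mul_ww (i j k : ℕ) (hk : k < 8) : ∃ i' j' k', k' < 8 ∧ (∃ b, 2 ∣ b ∧ j' = j + b) ∧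
    NF i j k * ww = NF i' j' k' := by
  by_cases h7 : k = 7
  · subst h7
    refine ⟨i, j, 0, by norm_num, ⟨0, dvd_zero _, rfl⟩, ?_⟩
    rw [NF, NF, if_pos rfl, if_neg (by norm_num), pow_zero, mul_one, mul_one]
  · by_cases h0 : k = 0
    · subst h0
      refine ⟨i, j, 7, by norm_num, ⟨0, dvd_zero _, rfl⟩, ?_⟩
      rw [NF, NF, if_pos rfl, if_neg (by norm_num), pow_zero, mul_one, mul_one, mul_assoc, ww_sq, mul_one]
    · obtain ⟨a, -, b, -, c, hc, hb2, hb⟩ := mul_ww k (by omega) h0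
      obtain ⟨a', ha'⟩ := g6_pow_nn_pow j a
      refine ⟨i + a', j + b, c, by omega, ⟨b, hb2, rfl⟩, ?_⟩
      rw [NF, if_neg h7, mul_assoc, hb, NF, if_neg hc.ne, pow_add, pow_add]
      have h1 : nn ^ i * g6 ^ j * (nn ^ a * g6 ^ b * (ww * nn ^ c)) =
          nn ^ i * (g6 ^ j * nn ^ a) * g6 ^ b * (ww * nn ^ c) := by simp only [mul_assoc]
      rw [h1, ha']
      simp only [mul_assoc]

theorem S_mul_nn {e : ℕ} (he : e ∣ 6) {g : Perm (Fin 8)} (hg : g ∈ S e) : g * nn ∈ S e := by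
  obtain ⟨i, -, j, -, k, hk, hj, rfl⟩ := hg
  obtain ⟨i', j', k', hk', rfl, h⟩ := NF_mul_nn i j k hk
  rw [h]
  exact mem_S he hj hk'

theorem S_mul_ww {e : ℕ} (he : e ∣ 6) (he2 : e ∣ 2) {g : Perm (Fin 8)} (hg : g ∈ S e) : g * ww ∈ S e := by
  obtain ⟨i, -, j, -, k, hk, hj, rfl⟩ := hg
  obtain ⟨i', j', k', hk', ⟨b, hb, rfl⟩, h⟩ := NF_mul_ww i j k hk
  rw [h]
  exact mem_S he ((Nat.dvd_add_right hj).2 (he2.trans hb)) hk'

theorem S_mul_g6 {g : Perm (Fin 8)} (hg : g ∈ S 1) : g * g6 ∈ S 1 := by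
  obtain ⟨i, -, j, -, k, hk, hj, rfl⟩ := hg
  obtain ⟨i', j', k', hk', -, h⟩ := NF_mul_g6 i j k hk
  rw [h]
  exact mem_S (one_dvd _) (one_dvd _) hk'

theorem S_mul_g6_sq {g : Perm (Fin 8)} (hg : g ∈ S 2) : g * g6 ^ 2 ∈ S 2 := by
  obtain ⟨i, -, j, -, k, hk, hj, rfl⟩ := hg
  obtain ⟨i', j', k', hk', h1, h⟩ := NF_mul_g6 i j k hk
  obtain ⟨i'', j'', k'', hk'', h2, h'⟩ := NF_mul_g6 i' j' k' hk'
  rw [pow_two, ← mul_assoc, h, h']
  exact mem_S (by norm_num) (by omega) hk''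

theorem S_mul_pow {e : ℕ} {x : Perm (Fin 8)} (h : ∀ g ∈ S e, g * x ∈ S e) (n : ℕ) :
    ∀ g ∈ S e, g * x ^ n ∈ S e := by
  induction n with
  | zero => intro g hg; simpa using hg
  | succ n ih =>
    intro g hg
    rw [pow_succ, ← mul_assoc]
    exact h _ (ih g hg)

theorem S_mul_inv {e : ℕ} {x : Perm (Fin 8)} (h : ∀ g ∈ S e, g * x ∈ S e) {g : Perm (Fin 8)} (hg : g ∈ S e) :
    g * x⁻¹ ∈ S e := by
  have h1 : x⁻¹ = x ^ (orderOf x - 1) := by
    have h2 : 0 < orderOf x := orderOf_pos x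
    have h3 : x ^ (orderOf x - 1) * x = 1 := by
      rw [← pow_succ, Nat.sub_add_cancel h2, pow_orderOf_eq_one]
    exact (eq_inv_of_mul_eq_one_left h3).symm
  rw [h1]
  exact S_mul_pow h _ g hg

theorem one_mem_S (e : ℕ) (he : e ∣ 6) : (1 : Perm (Fin 8)) ∈ S e := by
  have h := mem_S (i := 0) (j := 0) (k := 7) he (dvd_zero _) (by norm_num)
  have h1 : NF 0 0 7 = 1 := by simp [NF]
  rwa [h1] at h

theorem P336_le : ∀ g ∈ P336, g ∈ S 1 := by
  intro g hg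
  refine Subgroup.closure_induction_right (p := fun g _ => g ∈ S 1) (one_mem_S 1 (one_dvd _)) ?_ ?_ hg
  · rintro x _ y (rfl | rfl | rfl) hx
    · exact S_mul_nn (one_dvd _) hx
    · exact S_mul_g6 hx
    · exact S_mul_ww (one_dvd _) (one_dvd _) hx
  · rintro x _ y (rfl | rfl | rfl) hx
    · exact S_mul_inv (fun g hg => S_mul_nn (one_dvd _) hg) hx
    · exact S_mul_inv (fun g hg => S_mul_g6 hg) hx
    · exact S_mul_inv (fun g hg => S_mul_ww (one_dvd _) (one_dvd _) hg) hx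

theorem P168_le : ∀ g ∈ P168, g ∈ S 2 := by
  intro g hg
  refine Subgroup.closure_induction_right (p := fun g _ => g ∈ S 2) (one_mem_S 2 (by norm_num)) ?_ ?_ hg
  · rintro x _ y (rfl | rfl | rfl) hx
    · exact S_mul_nn (by norm_num) hx
    · exact S_mul_g6_sq hx
    · exact S_mul_ww (by norm_num) dvd_rfl hx
  · rintro x _ y (rfl | rfl | rfl) hx
    · exact S_mul_inv (fun g hg => S_mul_nn (by norm_num) hg) hx
    · exact S_mul_inv (fun g hg => S_mul_g6_sq hg) hx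
    · exact S_mul_inv (fun g hg => S_mul_ww (by norm_num) dvd_rfl hg) hx

theorem NF_mem_P336 (i j k : ℕ) : NF i j k ∈ P336 := by
  have h1 : nn ∈ P336 := Subgroup.subset_closure (by simp)
  have h2 : g6 ∈ P336 := Subgroup.subset_closure (by simp)
  have h3 : ww ∈ P336 := Subgroup.subset_closure (by simp)
  unfold NF
  refine mul_mem (mul_mem (pow_mem h1 _) (pow_mem h2 _)) ?_
  split_ifs
  · exact one_mem _
  · exact mul_mem h3 (pow_mem h1 _)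

theorem NF_mem_P168 (i j k : ℕ) (hj : 2 ∣ j) : NF i j k ∈ P168 := by
  have h1 : nn ∈ P168 := Subgroup.subset_closure (by simp)
  have h2 : g6 ^ 2 ∈ P168 := Subgroup.subset_closure (by simp)
  have h3 : ww ∈ P168 := Subgroup.subset_closure (by simp)
  obtain ⟨j, rfl⟩ := hj
  unfold NF
  refine mul_mem (mul_mem (pow_mem h1 _) ?_) ?_
  · rw [pow_mul]
    exact pow_mem h2 _
  split_ifs
  · exact one_mem _
  · exact mul_mem h3 (pow_mem h1 _)

/-- logarithm to the base 3 modulo 7 -/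
def lg : ℕ → ℕ
  | 1 => 0
  | 3 => 1
  | 2 => 2
  | 6 => 3
  | 4 => 4
  | _ => 5

/-- decoding of the normal form -/
def dec (g : Perm (Fin 8)) : ℕ × ℕ × ℕ :=
  if (g 7 : Fin 8).val = 7 then ((g 0 : Fin 8).val, lg (((g 1 : Fin 8).val + 7 - (g 0 : Fin 8).val) % 7), 7)
  else
    let k := (7 - (g.symm 7 : Fin 8).val) % 7
    ((g 7 : Fin 8).val, lg (((g 7 : Fin 8).val + 7 - (g (Fin.ofNat 8 ((8 - k) % 7)) : Fin 8).val) % 7), k)

theorem dec_NF : ∀ i < 7, ∀ j < 6, ∀ k < 8, dec (NF i j k) = (i, j, k) := by decide +kernel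

theorem NF_inj {i j k i' j' k' : ℕ} (hi : i < 7) (hj : j < 6) (hk : k < 8) (hi' : i' < 7) (hj' : j' < 6) (hk' : k' < 8)
    (h : NF i j k = NF i' j' k') : i = i' ∧ j = j' ∧ k = k' := by
  have h1 := dec_NF i hi j hj k hk
  rw [h, dec_NF i' hi' j' hj' k' hk'] at h1
  simp only [Prod.mk.injEq] at h1
  exact ⟨h1.1.symm, h1.2.1.symm, h1.2.2.symm⟩

theorem card_P336 : Nat.card ↥P336 = 336 := by
  have h : Function.Bijective (fun x : Fin 7 × Fin 6 × Fin 8 => (⟨NF x.1 x.2.1 x.2.2, NF_mem_P336 _ _ _⟩ : ↥P336)) := by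
    constructor
    · rintro ⟨i, j, k⟩ ⟨i', j', k'⟩ h
      obtain ⟨h1, h2, h3⟩ := NF_inj i.2 j.2 k.2 i'.2 j'.2 k'.2 (congrArg Subtype.val h)
      exact Prod.ext (Fin.ext h1) (Prod.ext (Fin.ext h2) (Fin.ext h3))
    · rintro ⟨g, hg⟩
      obtain ⟨i, hi, j, hj, k, hk, -, rfl⟩ := P336_le g hg
      exact ⟨(⟨i, hi⟩, ⟨j, hj⟩, ⟨k, hk⟩), rfl⟩
  rw [← Nat.card_congr (Equiv.ofBijective _ h)]
  simp

theorem card_P168 : Nat.card ↥P168 = 168 := by
  have h : Function.Bijective (fun x : Fin 7 × Fin 3 × Fin 8 =>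
      (⟨NF x.1 (2 * x.2.1) x.2.2, NF_mem_P168 _ _ _ ⟨_, rfl⟩⟩ : ↥P168)) := by
    constructor
    · rintro ⟨i, j, k⟩ ⟨i', j', k'⟩ h
      obtain ⟨h1, h2, h3⟩ := NF_inj i.2 (by omega) k.2 i'.2 (by omega) k'.2 (congrArg Subtype.val h)
      exact Prod.ext (Fin.ext h1) (Prod.ext (Fin.ext (by omega)) (Fin.ext h3))
    · rintro ⟨g, hg⟩
      obtain ⟨i, hi, j, hj, k, hk, ⟨m, rfl⟩, rfl⟩ := P168_le g hg
      exact ⟨(⟨i, hi⟩, ⟨m, by omega⟩, ⟨k, hk⟩), rfl⟩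
  rw [← Nat.card_congr (Equiv.ofBijective _ h)]
  simp

theorem y8_eq : ∃ i < 7, ∃ j < 6, ∃ k < 8, y8 = NF i j k := by decide +kernel

theorem y8_sq_eq : ∃ i < 7, ∃ j < 6, ∃ k < 8, 2 ∣ j ∧ y8 ^ 2 = NF i j k := by decide +kernel

theorem y8_ne : ∀ i < 7, ∀ j < 6, ∀ k < 8, 2 ∣ j → y8 ≠ NF i j k := by decide +kernel

theorem cent_sq : ∀ i < 7, ∀ j < 6, ∀ k < 8, NF i j k * y8 ^ 2 = y8 ^ 2 * NF i j k → ∃ m < 8, NF i j k = y8 ^ m := by
  decide +kernel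

theorem cent_sq' : ∀ i < 7, ∀ j < 3, ∀ k < 8, NF i (2 * j) k * y8 ^ 2 = y8 ^ 2 * NF i (2 * j) k →
    ∃ m < 4, NF i (2 * j) k = y8 ^ (2 * m) := by
  decide +kernel

theorem card_le {G : Type} [Group G] {C : Subgroup G} {n : ℕ} (f : ℕ → Perm (Fin 8)) (φ : G → Perm (Fin 8))
    (hφ : Function.Injective φ) (h : ∀ x ∈ C, ∃ m < n, φ x = f m) : Nat.card ↥C ≤ n := by
  choose m hm hm' using h
  have hinj : Function.Injective (fun x : ↥C => (⟨m x x.2, hm x x.2⟩ : Fin n)) := by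
    intro x y hxy
    have h1 : m x x.2 = m y y.2 := congrArg Fin.val hxy
    apply Subtype.ext
    apply hφ
    rw [hm' x x.2, hm' y y.2, h1]
  have := Nat.card_le_card_of_injective _ hinj
  simpa using this

/-- **Task CENT.** -/
theorem cent : Cfsg.Agent.H942.L7.Cent := by
  refine ⟨card_P168, card_P336, ?_, ?_, ?_, ?_, ?_, ?_⟩
  · obtain ⟨i, -, j, -, k, -, h⟩ := y8_eq
    rw [h]
    exact NF_mem_P336 _ _ _
  · obtain ⟨i, -, j, -, k, -, hj, h⟩ := y8_sq_eq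
    rw [h]
    exact NF_mem_P168 _ _ _ hj
  · intro h
    obtain ⟨i, hi, j, hj, k, hk, h2, h⟩ := P168_le _ h
    exact y8_ne i hi j hj k hk h2 h
  · intro c hc
    refine card_le (fun m => y8 ^ (2 * m)) (fun x : ↥P168 => (x : Perm (Fin 8))) Subtype.val_injective ?_
    intro x hx
    obtain ⟨i, hi, j, hj, k, hk, ⟨l, rfl⟩, h⟩ := P168_le _ x.2
    have h3 : (x : Perm (Fin 8)) * c = c * x :=
      congrArg Subtype.val (Subgroup.mem_centralizer_singleton_iff.1 hx)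
    rw [hc, h] at h3
    obtain ⟨m, hm, h4⟩ := cent_sq' i hi l (by omega) k hk h3
    exact ⟨m, hm, h.trans h4⟩
  · intro c hc
    refine card_le (fun m => y8 ^ m) (fun x : ↥P336 => (x : Perm (Fin 8))) Subtype.val_injective ?_
    intro x hx
    obtain ⟨i, hi, j, hj, k, hk, h2, h⟩ := P336_le _ x.2
    have h3 : (x : Perm (Fin 8)) * c = c * x :=
      congrArg Subtype.val (Subgroup.mem_centralizer_singleton_iff.1 hx)
    rw [hc, h] at h3
    obtain ⟨m, hm, h4⟩ := cent_sq i hi j hj k hk h3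
    exact ⟨m, hm, h.trans h4⟩
  · intro c hc
    refine card_le (fun m => y8 ^ m) (fun x : ↥P336 => (x : Perm (Fin 8))) Subtype.val_injective ?_
    intro x hx
    obtain ⟨i, hi, j, hj, k, hk, h2, h⟩ := P336_le _ x.2
    have h3 : (x : Perm (Fin 8)) * c = c * x :=
      congrArg Subtype.val (Subgroup.mem_centralizer_singleton_iff.1 hx)
    rw [hc, h] at h3
    have h5 : NF i j k * y8 ^ 2 = y8 ^ 2 * NF i j k := by
      rw [pow_two, ← mul_assoc, h3, mul_assoc, h3, mul_assoc]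
    obtain ⟨m, hm, h4⟩ := cent_sq i hi j hj k hk h5
    exact ⟨m, hm, h.trans h4⟩

end Cfsg.Agent.H893.L7
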